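import Cfsg.Agent.FusTate.Data
import Cfsg.Agent.Fusion.Alperin.Factor
import Cfsg.Agent.FusAut.Basic
import Cfsg.Agent.PGroup.Normal
import Cfsg.Agent.S5128

/-!
Weakly embedded subgroups of one order `d`: if every map whose source contains a strongly closed
subgroup of order `d` is a conjugation, the system is the inner one.
-/

set_option autoImplicit false

namespace CfsgLib.FusWeakEmbed59

open Cfsg Cfsg.FusionSystem CfsgLib.Fus CfsgLib.Fusion.Alperin

variable {Ω : Type*} [Group Ω] {S : Subgroup Ω}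

/-- Every subgroup of order `d` is weakly embedded. -/
def Embedded (F : Cfsg.FusionSystem S) (d : ℕ) : Prop :=
  ∀ Q : Subgroup Ω, Q ≤ S → Nat.card Q = d →
    ∃ P : Subgroup Ω, F.StronglyClosed P ∧ F.StronglyClosed (Q ⊔ P) ∧ F.StronglyClosed (Q ⊓ P)

/-- Maps whose source contains a strongly closed subgroup of order `d` are conjugations. -/
def InnerAbove (F : Cfsg.FusionSystem S) (d : ℕ) : Prop :=
  ∀ H : Subgroup Ω, F.StronglyClosed H → Nat.card H = d → ∀ (R : Subgroup Ω), H ≤ R →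
    ∀ φ ∈ F.Hom R, ∃ g ∈ S, ∀ x : R, φ x = g * (x : Ω) * g⁻¹

theorem stronglyClosed_inf {F : Cfsg.FusionSystem S} {A B : Subgroup Ω} (hA : F.StronglyClosed A)
    (hB : F.StronglyClosed B) : F.StronglyClosed (A ⊓ B) :=
  ⟨inf_le_left.trans hA.1, fun R hR φ hφ x =>
    ⟨hA.2 R (hR.trans inf_le_left) φ hφ x, hB.2 R (hR.trans inf_le_right) φ hφ x⟩⟩

theorem conj_mem_sc {F : Cfsg.FusionSystem S} {T : Subgroup Ω} (hT : F.StronglyClosed T) {g x : Ω}
    (hg : g ∈ S) (hx : x ∈ T) : g * x * g⁻¹ ∈ T :=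
  (Subgroup.mem_normalizer_iff.1 (le_normalizer_of_stronglyClosed hT hg) x).1 hx

theorem mem_sup_iff {F : Cfsg.FusionSystem S} {T U : Subgroup Ω} (hT : F.StronglyClosed T)
    (hU : U ≤ S) {x : Ω} : x ∈ U ⊔ T ↔ ∃ u ∈ U, ∃ t ∈ T, u * t = x := by
  rw [← SetLike.mem_coe, Subgroup.coe_mul_of_left_le_normalizer_right U T
    (hU.trans (le_normalizer_of_stronglyClosed hT))]
  exact Set.mem_mul

/-- Elements of two strongly closed subgroups with trivial intersection commute. -/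
theorem commute_of_inf_eq_bot {F : Cfsg.FusionSystem S} {A B : Subgroup Ω} (hA : F.StronglyClosed A)
    (hB : F.StronglyClosed B) (h : A ⊓ B = ⊥) {a b : Ω} (ha : a ∈ A) (hb : b ∈ B) :
    a * b = b * a := by
  have h1 : a * b * a⁻¹ * b⁻¹ ∈ A ⊓ B := by
    refine ⟨?_, B.mul_mem (conj_mem_sc hB (hA.1 ha) hb) (B.inv_mem hb)⟩
    have e : a * b * a⁻¹ * b⁻¹ = a * (b * a⁻¹ * b⁻¹) := by group
    rw [e]
    exact A.mul_mem ha (conj_mem_sc hA (hB.1 hb) (A.inv_mem ha))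
  rw [h, Subgroup.mem_bot] at h1
  calc a * b = (a * b * a⁻¹ * b⁻¹) * (b * a) := by group
    _ = b * a := by rw [h1, one_mul]

variable [Finite S] {p : ℕ} [Fact p.Prime]

/-- An automorphism of order prime to `p` which is a conjugation modulo `T` is trivial modulo `T`. -/
theorem trivial_mod (hS : IsPGroup p S) {T R : Subgroup Ω}
    (hT : ∀ g ∈ S, ∀ x ∈ T, g * x * g⁻¹ ∈ T) (hR : R ≤ S) {α : MulAut R} {g : Ω} (hg : g ∈ S)
    (h : ∀ x : R, (g * (x : Ω) * g⁻¹)⁻¹ * ((α x : R) : Ω) ∈ T) {m : ℕ} (hm : m.Coprime p)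
    (hαm : α ^ m = 1) (x : R) : (x : Ω)⁻¹ * ((α x : R) : Ω) ∈ T := by
  have key : ∀ (n : ℕ) (x : R),
      (g ^ n * (x : Ω) * (g ^ n)⁻¹)⁻¹ * (((α ^ n) x : R) : Ω) ∈ T := by
    intro n
    induction n with
    | zero => intro x; simp
    | succ n ih =>
      intro x
      have h1 := h ((α ^ n) x)
      have h2 := hT g hg _ (ih x)
      rw [pow_succ', pow_succ' (a := α), MulAut.mul_apply]
      have e : (g * g ^ n * (x : Ω) * (g * g ^ n)⁻¹)⁻¹ * ((α ((α ^ n) x) : R) : Ω) =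
          (g * ((g ^ n * (x : Ω) * (g ^ n)⁻¹)⁻¹ * (((α ^ n) x : R) : Ω)) * g⁻¹) *
            ((g * (((α ^ n) x : R) : Ω) * g⁻¹)⁻¹ * ((α ((α ^ n) x) : R) : Ω)) := by
        group
      rw [e]
      exact T.mul_mem h2 h1
  set N := Nat.card S with hN
  have hgN : g ^ N = 1 := congrArg Subtype.val (pow_card_eq_one' (G := S) (x := ⟨g, hg⟩))
  have hN1 : ∀ x : R, (x : Ω)⁻¹ * (((α ^ N) x : R) : Ω) ∈ T := fun x => by
    simpa [hgN] using key N x
  have hmul : ∀ (j : ℕ) (x : R), (x : Ω)⁻¹ * (((α ^ (N * j)) x : R) : Ω) ∈ T := by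
    intro j
    induction j with
    | zero => intro x; simp
    | succ j ih =>
      intro x
      have e : (x : Ω)⁻¹ * (((α ^ (N * (j + 1))) x : R) : Ω) =
          ((x : Ω)⁻¹ * (((α ^ N) x : R) : Ω)) *
            ((((α ^ N) x : R) : Ω)⁻¹ * (((α ^ (N * j)) ((α ^ N) x) : R) : Ω)) := by
        rw [Nat.mul_succ, pow_add, MulAut.mul_apply]
        group
      rw [e]
      exact T.mul_mem (hN1 x) (ih _)
  obtain ⟨e, he⟩ := IsPGroup.iff_card.1 hS
  rcases Nat.lt_or_ge 1 m with hm1 | hm1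
  · have hc : N.Coprime m := by rw [hN, he]; exact hm.symm.pow_left e
    obtain ⟨j, -, hj⟩ := Nat.exists_mul_mod_eq_one_of_coprime hc hm1
    have e2 : α ^ (N * j) = α := by
      conv_lhs => rw [← Nat.mod_add_div (N * j) m, hj, pow_add, pow_one, pow_mul, hαm, one_pow, mul_one]
    simpa [e2] using hmul j x
  · have hα : α = 1 := by
      rcases Nat.lt_or_ge m 1 with h0 | h0
      · obtain rfl : m = 0 := by omega
        exact absurd ((Nat.coprime_zero_left p).1 hm) (Fact.out : p.Prime).ne_one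
      · obtain rfl : m = 1 := by omega
        simpa using hαm
    simp [hα]

theorem eq_one_of_conj (hS : IsPGroup p S) {R : Subgroup Ω} (hR : R ≤ S) {α : MulAut R} {g : Ω}
    (hg : g ∈ S) (h : ∀ x : R, ((α x : R) : Ω) = g * (x : Ω) * g⁻¹) {m : ℕ} (hm : m.Coprime p)
    (hαm : α ^ m = 1) : α = 1 := by
  refine MulEquiv.ext fun x => Subtype.ext ?_
  have := trivial_mod (T := ⊥) hS (fun g _ x hx => by simp [Subgroup.mem_bot.1 hx]) hR hg
    (fun x => by rw [h x, inv_mul_cancel]; exact one_mem _) hm hαm x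
  rw [Subgroup.mem_bot, inv_mul_eq_one] at this
  exact this.symm

variable (hS : IsPGroup p S) {F : Cfsg.FusionSystem S} (hF : F.IsSaturated p) {d : ℕ}

include hS hF in
theorem stronglyClosed_sup {A B : Subgroup Ω} (hA : F.StronglyClosed A) (hB : F.StronglyClosed B) :
    F.StronglyClosed (A ⊔ B) :=
  Cfsg.Agent.S5128.result p hS F hF A B hA hB

omit [Fact p.Prime] in
/-- A subgroup of prescribed order between two subgroups. -/
theorem exists_between [Fact p.Prime] (hS : IsPGroup p S) {A B : Subgroup Ω} (hAB : A ≤ B)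
    (hB : B ≤ S) {k : ℕ} (h1 : Nat.card A ≤ p ^ k) (h2 : p ^ k ≤ Nat.card B) :
    ∃ Q : Subgroup Ω, A ≤ Q ∧ Q ≤ B ∧ Nat.card Q = p ^ k := by
  have hp := (Fact.out : p.Prime)
  have := finite_of_le hB
  have := finite_of_le hAB
  obtain ⟨a, ha⟩ := IsPGroup.iff_card.1 (hS.to_le (hAB.trans hB))
  obtain ⟨b, hb⟩ := IsPGroup.iff_card.1 (hS.to_le hB)
  have hak : a ≤ k := (Nat.pow_le_pow_iff_right hp.one_lt).1 (ha ▸ h1)
  have hkb : k ≤ b := (Nat.pow_le_pow_iff_right hp.one_lt).1 (hb ▸ h2)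
  obtain ⟨K, hK, hAK⟩ := Sylow.exists_subgroup_card_pow_prime_le (G := B) p
    (hb ▸ pow_dvd_pow p hkb) (A.subgroupOf B)
    (by rw [Nat.card_congr (Subgroup.subgroupOfEquivOfLe hAB).toEquiv, ha]) hak
  refine ⟨K.map B.subtype, ?_, Subgroup.map_subtype_le K, ?_⟩
  · intro x hx
    exact ⟨⟨x, hAB hx⟩, hAK hx, rfl⟩
  · rw [Subgroup.card_map_of_injective B.subtype_injective, hK]

theorem lt_card {A B : Subgroup Ω} (hB : B ≤ S) (h : A < B) : Nat.card A < Nat.card B := by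
  have := finite_of_le hB
  exact lt_of_le_of_ne (Subgroup.card_le_of_le h.le)
    fun e => h.ne (Subgroup.eq_of_le_of_card_ge h.le e.ge)

include hS hF in
/-- A strongly closed subgroup of order `d` between strongly closed subgroups straddling `d`. -/
theorem exists_mid {k : ℕ} (hW : Embedded F (p ^ k)) {A B : Subgroup Ω} (hA : F.StronglyClosed A)
    (hB : F.StronglyClosed B) (hAB : A ≤ B) (h1 : Nat.card A ≤ p ^ k) (h2 : p ^ k ≤ Nat.card B) :
    ∃ H, F.StronglyClosed H ∧ A ≤ H ∧ H ≤ B ∧ Nat.card H = p ^ k := by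
  induction hn : Nat.card B - Nat.card A using Nat.strong_induction_on generalizing A B with
  | _ n ih =>
  subst hn
  rcases h1.eq_or_lt with h1 | h1
  · exact ⟨A, hA, le_rfl, hAB, h1⟩
  rcases h2.eq_or_lt with h2 | h2
  · exact ⟨B, hB, hAB, le_rfl, h2.symm⟩
  by_contra hcon
  -- no strongly closed subgroup strictly between
  have hno : ∀ C, F.StronglyClosed C → A ≤ C → C ≤ B → C = A ∨ C = B := by
    intro C hC hAC hCB
    by_contra hne
    push Not at hne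
    have l1 := lt_card hC.1 (lt_of_le_of_ne hAC (Ne.symm hne.1))
    have l2 := lt_card hB.1 (lt_of_le_of_ne hCB hne.2)
    rcases Nat.le_total (Nat.card C) (p ^ k) with hc | hc
    · obtain ⟨H, hH, h1', h2', h3'⟩ := ih _ (by omega) hC hB hCB hc h2.le rfl
      exact hcon ⟨H, hH, hAC.trans h1', h2', h3'⟩
    · obtain ⟨H, hH, h1', h2', h3'⟩ := ih _ (by omega) hA hC hAC h1.le hc rfl
      exact hcon ⟨H, hH, h1', h2'.trans hCB, h3'⟩
  obtain ⟨Q, hAQ, hQB, hQc⟩ := exists_between hS hAB hB.1 h1.le h2.le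
  have hQA : Q ≠ A := fun e => h1.ne (e ▸ hQc)
  have hQB' : Q ≠ B := fun e => h2.ne (e ▸ hQc).symm
  obtain ⟨P, hP, hQP, hQiP⟩ := hW Q (hQB.trans hB.1) hQc
  have hX : F.StronglyClosed (P ⊓ B) := stronglyClosed_inf hP hB
  have hfull : B ≤ Q ⊔ P := by
    rcases hno _ (stronglyClosed_inf hQP hB) (le_inf (hAQ.trans le_sup_left) hAB) inf_le_right with
      e | e
    · exact absurd (le_antisymm (e ▸ le_inf le_sup_left hQB) hAQ) hQA
    · exact e ▸ inf_le_left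
  rcases hno _ (stronglyClosed_sup hS hF hA hX) le_sup_left (sup_le hAB inf_le_right) with e | e
  · refine hQB' (le_antisymm hQB fun b hb => ?_)
    obtain ⟨q, hq, t, ht, rfl⟩ := (mem_sup_iff hP (hQB.trans hB.1)).1 (hfull hb)
    have htB : t ∈ B := by
      have := B.mul_mem (B.inv_mem (hQB hq)) hb
      simpa using this
    exact Q.mul_mem hq (hAQ (e ▸ Subgroup.mem_sup_right ⟨ht, htB⟩))
  · refine hQA (le_antisymm (fun q hq => ?_) hAQ)
    have hQPA : Q ⊓ P ≤ A := by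
      rcases hno _ (stronglyClosed_sup hS hF hA hQiP) le_sup_left
          (sup_le hAB (inf_le_left.trans hQB)) with e' | e'
      · exact le_sup_right.trans e'.le
      · exact absurd (le_antisymm hQB (e' ▸ sup_le hAQ inf_le_left)) hQB'
    have hqB : q ∈ A ⊔ P ⊓ B := e.symm ▸ hQB hq
    obtain ⟨a, ha, t, ht, rfl⟩ := (mem_sup_iff hX hA.1).1 hqB
    refine A.mul_mem ha (hQPA ⟨?_, ht.1⟩)
    have := Q.mul_mem (Q.inv_mem (hAQ ha)) hq
    simpa using this

/-! ### Two strongly closed subgroups with trivial intersection -/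

include hS hF in
/-- Climbing along `H₂`: an automorphism of order prime to `p` trivial modulo `H₁` is trivial. -/
theorem climb {H₁ H₂ : Subgroup Ω} (h₁ : F.StronglyClosed H₁) (h₂ : F.StronglyClosed H₂)
    (h12 : H₁ ⊓ H₂ = ⊥)
    (hab : ∀ R : Subgroup Ω, H₂ ≤ R → ∀ φ ∈ F.Hom R, ∃ g ∈ S, ∀ x : R, φ x = g * (x : Ω) * g⁻¹)
    {R : Subgroup Ω} (hc : F.IsCentric R) {b : MulAut R} (hb : b ∈ F.autGroup R) {m : ℕ}
    (hm : m.Coprime p) (hbm : b ^ m = 1)
    (htriv : ∀ x : R, (x : Ω)⁻¹ * ((b x : R) : Ω) ∈ H₁) : b = 1 := by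
  induction hn : Nat.card S - Nat.card R using Nat.strong_induction_on generalizing R with
  | _ n ih =>
  subst hn
  have hR := hc.1
  have hφ := (mem_autGroup_iff F hR).1 hb
  by_cases hle : H₂ ≤ R
  · obtain ⟨g, hg, hgx⟩ := hab R hle _ hφ
    exact eq_one_of_conj hS hR hg hgx hm hbm
  have hcen : ∀ a ∈ H₁, ∀ y ∈ H₂, a * y = y * a := fun a ha y hy =>
    commute_of_inf_eq_bot h₁ h₂ h12 ha hy
  have hfix : ∀ x : R, (x : Ω) ∈ H₂ → b x = x := fun x hx => by
    have h : (x : Ω)⁻¹ * ((b x : R) : Ω) ∈ H₁ ⊓ H₂ :=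
      ⟨htriv x, H₂.mul_mem (H₂.inv_mem hx) (map_mem_of_stronglyClosed h₂ hφ hx)⟩
    rw [h12, Subgroup.mem_bot, inv_mul_eq_one] at h
    exact Subtype.ext h.symm
  set Y := H₂ ⊓ normalizerIn S R with hY
  -- `b` commutes with the conjugations by `Y`
  have hcomm : ∀ y ∈ Y, ∀ (x : R) (hx : y * (x : Ω) * y⁻¹ ∈ R),
      ((b ⟨_, hx⟩ : R) : Ω) = y * ((b x : R) : Ω) * y⁻¹ := by
    intro y hy x hx
    have hc2 : y * (x : Ω) * y⁻¹ * (x : Ω)⁻¹ ∈ H₂ := by
      have e : y * (x : Ω) * y⁻¹ * (x : Ω)⁻¹ = y * ((x : Ω) * y⁻¹ * (x : Ω)⁻¹) := by group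
      rw [e]
      exact H₂.mul_mem hy.1 (conj_mem_sc h₂ (hR x.2) (H₂.inv_mem hy.1))
    have hcR : y * (x : Ω) * y⁻¹ * (x : Ω)⁻¹ ∈ R := R.mul_mem hx (R.inv_mem x.2)
    have e1 : (⟨_, hx⟩ : R) = ⟨_, hcR⟩ * x := Subtype.ext (by simp [mul_assoc])
    rw [e1, map_mul, hfix ⟨_, hcR⟩ hc2, Subgroup.coe_mul]
    set z := (x : Ω)⁻¹ * ((b x : R) : Ω) with hz
    have hbx : ((b x : R) : Ω) = (x : Ω) * z := by rw [hz]; group
    rw [hbx]
    have hzy : z * y⁻¹ = y⁻¹ * z := hcen z (htriv x) y⁻¹ (H₂.inv_mem hy.1)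
    calc y * (x : Ω) * y⁻¹ * (x : Ω)⁻¹ * ((x : Ω) * z) = y * (x : Ω) * (y⁻¹ * z) := by group
      _ = y * ((x : Ω) * z) * y⁻¹ := by rw [← hzy]; group
  set E := extender S R (R.subtype.comp b.toMonoidHom) with hE
  obtain ⟨ψ, hψ, hψe⟩ := (receptive_of_fullyCentralized hS hF (isFullyCentralized_of_centric hc)).2
    R _ hφ (range_subtype_comp b)
  have hRE : R ≤ E := le_extender F hφ
  have hYE : Y ≤ E := fun y hy =>
    mem_extender_iff.2 ⟨hy.2.1, hy.2.2, y, hy.2.1, fun x hx => hcomm y hy x hx⟩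
  have hψR : ∀ x : R, ψ (Subgroup.inclusion hRE x) = ((b x : R) : Ω) := fun x => hψe x x.2 _
  set R' := R ⊔ Y with hR'
  have hR'S : R' ≤ S := sup_le hR (inf_le_right.trans (normalizerIn_le R))
  have := finite_of_le hR'S
  have hψY : ∀ (y : Ω) (hy : y ∈ Y), ψ ⟨y, hYE hy⟩ ∈ Y := fun y hy =>
    ⟨map_mem_of_stronglyClosed h₂ hψ (x := ⟨y, hYE hy⟩) hy.1,
      map_mem_normalizerIn (range_subtype_comp b) hψ hRE hψR (g := ⟨y, hYE hy⟩) hy.2.2⟩
  have hR'E : R' ≤ E := sup_le hRE hYE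
  have hmaps : ∀ x : R', ψ (Subgroup.inclusion hR'E x) ∈ R' := by
    have hle' : R' ≤ (R'.comap ψ).map E.subtype := sup_le
      (fun x hx => ⟨⟨x, hRE hx⟩,
        Subgroup.mem_sup_left (show ψ (Subgroup.inclusion hRE ⟨x, hx⟩) ∈ R from
          (hψR ⟨x, hx⟩).symm ▸ (b ⟨x, hx⟩).2), rfl⟩)
      fun y hy => ⟨⟨y, hYE hy⟩, Subgroup.mem_sup_right (hψY y hy), rfl⟩
    intro x
    obtain ⟨u, hu, hux⟩ := hle' x.2
    have e : u = Subgroup.inclusion hR'E x := Subtype.ext hux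
    exact e ▸ hu
  let f₀ : R' →* R' := (ψ.comp (Subgroup.inclusion hR'E)).codRestrict R' hmaps
  have hf₀ : Function.Injective f₀ := fun a c hac =>
    Subgroup.inclusion_injective hR'E (F.injective_of_mem hψ (congrArg Subtype.val hac))
  let f : MulAut R' := MulEquiv.ofBijective f₀ ⟨hf₀, Finite.surjective_of_injective hf₀⟩
  have hf : f ∈ F.autGroup R' := mem_autGroup_of_apply F (restrict_mem F hψ hR'E) fun _ => rfl
  let ι : R →* R' := Subgroup.inclusion le_sup_left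
  have hfR : ∀ (j : ℕ) (x : R), (f ^ j) (ι x) = ι ((b ^ j) x) := by
    intro j
    induction j with
    | zero => intro x; simp
    | succ j ihj =>
      intro x
      rw [pow_succ', pow_succ' (a := b), MulAut.mul_apply, MulAut.mul_apply, ihj]
      exact Subtype.ext (hψR _)
  set N := Nat.card S with hN
  -- the power `f ^ N` fixes `Y`
  have hfY : ∀ (y : Ω) (hy : y ∈ Y), (f ^ N) ⟨y, Subgroup.mem_sup_right hy⟩ =
      ⟨y, Subgroup.mem_sup_right hy⟩ := by
    intro y hy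
    set u : R' := ⟨y, Subgroup.mem_sup_right hy⟩ with hu
    set w : Ω := y⁻¹ * ψ ⟨y, hYE hy⟩ with hw
    have hwC : w ∈ centralizerIn S R := by
      refine ⟨S.mul_mem (S.inv_mem hy.2.1) (hom_mem F hψ _), fun x hx => ?_⟩
      have hyx : y * x * y⁻¹ ∈ R := (Subgroup.mem_normalizer_iff.1 hy.2.2 x).1 hx
      have h1 : ψ ⟨y, hYE hy⟩ * ((b ⟨x, hx⟩ : R) : Ω) * (ψ ⟨y, hYE hy⟩)⁻¹ =
          y * ((b ⟨x, hx⟩ : R) : Ω) * y⁻¹ := by
        rw [← hcomm y hy ⟨x, hx⟩ hyx, ← hψR, ← hψR, ← map_inv, ← map_mul, ← map_mul]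
        rfl
      have hall : ∀ v : R, w * (v : Ω) * w⁻¹ = v := fun v => by
        obtain ⟨⟨x', hx'⟩, rfl⟩ := b.surjective v
        have hyx' : y * x' * y⁻¹ ∈ R := (Subgroup.mem_normalizer_iff.1 hy.2.2 x').1 hx'
        have h1' : ψ ⟨y, hYE hy⟩ * ((b ⟨x', hx'⟩ : R) : Ω) * (ψ ⟨y, hYE hy⟩)⁻¹ =
            y * ((b ⟨x', hx'⟩ : R) : Ω) * y⁻¹ := by
          rw [← hcomm y hy ⟨x', hx'⟩ hyx', ← hψR, ← hψR, ← map_inv, ← map_mul, ← map_mul]
          rfl
        calc w * ((b ⟨x', hx'⟩ : R) : Ω) * w⁻¹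
            = y⁻¹ * (ψ ⟨y, hYE hy⟩ * ((b ⟨x', hx'⟩ : R) : Ω) * (ψ ⟨y, hYE hy⟩)⁻¹) * y := by
              rw [hw]; group
          _ = _ := by rw [h1']; group
      exact (mul_inv_eq_iff_eq_mul.1 (hall ⟨x, hx⟩)).symm
    have hwR : w ∈ R := centralizerIn_le_of_centric hc hwC
    have hw2 : w ∈ H₂ := H₂.mul_mem (H₂.inv_mem hy.1) (hψY y hy).1
    have hfu : f u = u * ι ⟨w, hwR⟩ := Subtype.ext (show ψ _ = y * w by
      rw [hw, mul_inv_cancel_left]; rfl)
    have hfw : f (ι ⟨w, hwR⟩) = ι ⟨w, hwR⟩ := by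
      have := hfR 1 ⟨w, hwR⟩
      rwa [pow_one, pow_one, hfix ⟨w, hwR⟩ hw2] at this
    rw [pow_fix_mul hfu hfw]
    have hwN' : w ^ N = 1 := congrArg Subtype.val (pow_card_eq_one' (G := S) (x := ⟨w, hR hwR⟩))
    have hwN : (⟨w, hwR⟩ : R) ^ N = 1 := Subtype.ext hwN'
    rw [← map_pow, hwN, map_one, mul_one]
  have hgen : ∀ (Q : Subgroup R'), (∀ x : R, ι x ∈ Q) →
      (∀ (y : Ω) (hy : y ∈ Y), (⟨y, Subgroup.mem_sup_right hy⟩ : R') ∈ Q) → ∀ u : R', u ∈ Q := by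
    intro Q h1 h2 u
    have hle' : R' ≤ Q.map R'.subtype := sup_le (fun x hx => ⟨_, h1 ⟨x, hx⟩, rfl⟩)
      fun y hy => ⟨_, h2 y hy, rfl⟩
    obtain ⟨v, hv, hvu⟩ := hle' u.2
    exact (Subtype.ext hvu : v = u) ▸ hv
  have hgm : (f ^ N) ^ m = 1 := by
    refine MulEquiv.ext fun u => ?_
    refine hgen (MonoidHom.eqLocus ((f ^ N) ^ m).toMonoidHom (MonoidHom.id R')) (fun x => ?_)
      (fun y hy => ?_) u
    · show ((f ^ N) ^ m) (ι x) = ι x
      rw [← pow_mul, hfR, mul_comm, pow_mul, hbm, one_pow, MulAut.one_apply]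
    · show ((f ^ N) ^ m) _ = _
      generalize hv : (⟨y, Subgroup.mem_sup_right hy⟩ : R') = v
      have hfix' : (f ^ N) v = v := hv ▸ hfY y hy
      have key : ∀ j : ℕ, ((f ^ N) ^ j) v = v := by
        intro j
        induction j with
        | zero => simp
        | succ j ihj => rw [pow_succ, MulAut.mul_apply, hfix', ihj]
      exact key m
  have hfpow : f ^ N ∈ F.autGroup R' := pow_mem hf N
  have hgt : ∀ u : R', (u : Ω)⁻¹ * (((f ^ N) u : R') : Ω) ∈ H₁ := by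
    let Q : Subgroup R' :=
      { carrier := {u | (u : Ω)⁻¹ * (((f ^ N) u : R') : Ω) ∈ H₁}
        one_mem' := by simp
        mul_mem' := fun {u v} hu hv => by
          show ((u * v : R') : Ω)⁻¹ * (((f ^ N) (u * v) : R') : Ω) ∈ H₁
          have e : ((u * v : R') : Ω)⁻¹ * (((f ^ N) (u * v) : R') : Ω) =
              ((v : Ω)⁻¹ * ((u : Ω)⁻¹ * (((f ^ N) u : R') : Ω)) * ((v : Ω)⁻¹)⁻¹) *
                ((v : Ω)⁻¹ * (((f ^ N) v : R') : Ω)) := by
            rw [map_mul, Subgroup.coe_mul, Subgroup.coe_mul]; group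
          rw [e]
          exact H₁.mul_mem (conj_mem_sc h₁ (S.inv_mem (hR'S v.2)) hu) hv
        inv_mem' := fun {u} hu => by
          show ((u⁻¹ : R') : Ω)⁻¹ * (((f ^ N) u⁻¹ : R') : Ω) ∈ H₁
          have e : ((u⁻¹ : R') : Ω)⁻¹ * (((f ^ N) u⁻¹ : R') : Ω) =
              (u : Ω) * ((u : Ω)⁻¹ * (((f ^ N) u : R') : Ω))⁻¹ * (u : Ω)⁻¹ := by
            rw [map_inv, Subgroup.coe_inv, Subgroup.coe_inv]; group
          rw [e]
          exact conj_mem_sc h₁ (hR'S u.2) (H₁.inv_mem hu) }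
    refine hgen Q (fun x => ?_) fun y hy => ?_
    · show (x : Ω)⁻¹ * (((f ^ N) (ι x) : R') : Ω) ∈ H₁
      rw [hfR]
      show (x : Ω)⁻¹ * (((b ^ N) x : R) : Ω) ∈ H₁
      have key : ∀ (j : ℕ) (x : R), (x : Ω)⁻¹ * (((b ^ j) x : R) : Ω) ∈ H₁ := by
        intro j
        induction j with
        | zero => intro x; simp
        | succ j ihj =>
          intro x
          have e : (x : Ω)⁻¹ * (((b ^ (j + 1)) x : R) : Ω) =
              ((x : Ω)⁻¹ * ((b x : R) : Ω)) * (((b x : R) : Ω)⁻¹ * (((b ^ j) (b x) : R) : Ω)) := by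
            rw [pow_succ, MulAut.mul_apply]; group
          rw [e]
          exact H₁.mul_mem (htriv x) (ihj _)
      exact key N x
    · show y⁻¹ * (((f ^ N) ⟨y, Subgroup.mem_sup_right hy⟩ : R') : Ω) ∈ H₁
      rw [hfY y hy]
      simp
  have hlt : Nat.card R < Nat.card R' := by
    refine lt_card hR'S (lt_of_le_of_ne le_sup_left fun e => hle ?_)
    refine le_of_normalizing_mem hS h₂.1 hR (hR.trans (le_normalizer_of_stronglyClosed h₂))
      fun y hy hyN => ?_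
    have : y ∈ R' := Subgroup.mem_sup_right ⟨hy, h₂.1 hy, hyN⟩
    exact e.symm ▸ this
  have hfN : f ^ N = 1 := by
    have hle2 := Subgroup.card_le_of_le hR'S
    exact ih (N - Nat.card R') (by omega) (isCentric_of_le hc le_sup_left hR'S) hfpow hgm hgt rfl
  have hbN : b ^ N = 1 := MulEquiv.ext fun x => by
    have := hfR N x
    rw [hfN, MulAut.one_apply] at this
    exact (Subgroup.inclusion_injective le_sup_left this).symm
  obtain ⟨e, he⟩ := IsPGroup.iff_card.1 hS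
  rw [← orderOf_eq_one_iff]
  refine Nat.eq_one_of_dvd_coprimes (?_ : m.Coprime N) (orderOf_dvd_of_pow_eq_one hbm)
    (orderOf_dvd_of_pow_eq_one hbN)
  rw [hN, he]
  exact hm.pow_right e

include hS hF in
/-- Two strongly closed subgroups with trivial intersection and only conjugations above them. -/
theorem eq_inner_of_two {H₁ H₂ : Subgroup Ω} (h₁ : F.StronglyClosed H₁) (h₂ : F.StronglyClosed H₂)
    (h12 : H₁ ⊓ H₂ = ⊥)
    (hab : ∀ R : Subgroup Ω, (H₁ ≤ R ∨ H₂ ≤ R) → ∀ φ ∈ F.Hom R,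
      ∃ g ∈ S, ∀ x : R, φ x = g * (x : Ω) * g⁻¹)
    (P : Subgroup Ω) : F.Hom P = (Cfsg.innerFusionSystem S).Hom P := by
  refine eq_inner_of_autGroup_le hS hF (fun R hR α hα => ?_) P
  have hRS := hR.centric.1
  by_cases hle : H₁ ≤ R ∨ H₂ ≤ R
  · obtain ⟨g, hg, hgx⟩ := hab R hle _ ((mem_autGroup_iff F hRS).1 hα)
    exact mem_autInducedBy_iff.2 ⟨g, hg, hgx⟩
  exfalso
  push Not at hle
  have := finite_of_le hRS
  have := finite_mulAut R
  refine hle.1 (le_of_normalizing_mem hS h₁.1 hRS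
    (hRS.trans (le_normalizer_of_stronglyClosed h₁)) fun t ht htN => ?_)
  refine mem_of_mem_pCore_of_radical (S := S) hR.centric hR.radical ⟨h₁.1 ht, htN⟩ fun hm => ?_
  let B : Subgroup (F.autGroup R) :=
    { carrier := {a | ∀ x : R, (x : Ω)⁻¹ * (((a : MulAut R) x : R) : Ω) ∈ H₁}
      one_mem' := fun x => by simp
      mul_mem' := fun {a c} ha hc x => by
        have e : (x : Ω)⁻¹ * (((a : MulAut R) ((c : MulAut R) x) : R) : Ω) =
            ((x : Ω)⁻¹ * (((c : MulAut R) x : R) : Ω)) *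
              ((((c : MulAut R) x : R) : Ω)⁻¹ * (((a : MulAut R) ((c : MulAut R) x) : R) : Ω)) := by
          group
        show (x : Ω)⁻¹ * (((a : MulAut R) ((c : MulAut R) x) : R) : Ω) ∈ H₁
        rw [e]
        exact H₁.mul_mem (hc x) (ha _)
      inv_mem' := fun {a} ha x => by
        have h := H₁.inv_mem (ha ((a : MulAut R)⁻¹ x))
        rw [MulAut.inv_apply, MulEquiv.apply_symm_apply] at h
        show (x : Ω)⁻¹ * (((a : MulAut R)⁻¹ x : R) : Ω) ∈ H₁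
        rw [MulAut.inv_apply]
        simpa using h }
  have hBn : B.Normal := by
    refine ⟨fun c hc a x => ?_⟩
    set u : R := (a : MulAut R)⁻¹ x with hu
    have h := map_mem_of_stronglyClosed h₁ ((mem_autGroup_iff F hRS).1 a.2)
      (x := u⁻¹ * (c : MulAut R) u) (hc u)
    have e : (a : MulAut R) (u⁻¹ * (c : MulAut R) u) = x⁻¹ * ((a * c * a⁻¹ : F.autGroup R) : MulAut R) x := by
      rw [map_mul, map_inv, hu, MulAut.inv_apply, MulEquiv.apply_symm_apply]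
      rfl
    have h2 : ((((a : MulAut R) (u⁻¹ * (c : MulAut R) u)) : R) : Ω) ∈ H₁ := h
    rw [e] at h2
    exact h2
  refine CharP.le_pCore hBn (FusAut.isPGroup_of_prime_order fun a q hq hqp haq => ?_) fun x => ?_
  · apply Subtype.ext
    apply Subtype.ext
    refine climb hS hF h₁ h₂ h12 (fun R' h => hab R' (Or.inr h)) hR.centric (a : F.autGroup R).2
      (m := q) ((Nat.coprime_primes hq Fact.out).2 hqp) ?_ a.2
    exact congrArg (fun c : B => ((c : F.autGroup R) : MulAut R)) haq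
  · show (x : Ω)⁻¹ * (t * (x : Ω) * t⁻¹) ∈ H₁
    have e : (x : Ω)⁻¹ * (t * (x : Ω) * t⁻¹) =
        ((x : Ω)⁻¹ * t * ((x : Ω)⁻¹)⁻¹) * t⁻¹ := by group
    rw [e]
    exact H₁.mul_mem (conj_mem_sc h₁ (S.inv_mem (hRS x.2)) ht) (H₁.inv_mem ht)

end CfsgLib.FusWeakEmbed59
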