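import Cfsg.Agent.FusWeakEmbed59.Basic
import Cfsg.Agent.Fusion.Alperin.Solvable

/-!
If every subgroup of one order `p ^ k` is weakly embedded and the maps above the strongly closed
subgroups of that order are conjugations, the system is the inner one.
-/

set_option autoImplicit false

namespace CfsgLib.FusWeakEmbed59

open Cfsg Cfsg.FusionSystem CfsgLib.Fus CfsgLib.Fusion.Alperin

section Aux

variable {Ω : Type*} [Group Ω] {S : Subgroup Ω} [Finite S] {Ω' : Type*} [Group Ω']

theorem card_preimageAlong {θ : S →* Ω'} (hθ : Function.Surjective θ) (Q' : Subgroup Ω') :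
    Nat.card (preimageAlong θ Q') = Nat.card θ.ker * Nat.card Q' := by
  have := Finite.of_surjective θ hθ
  rw [preimageAlong, Subgroup.card_map_of_injective S.subtype_injective]
  have h1 := Subgroup.card_mul_index (Q'.comap θ)
  have h2 := Subgroup.card_mul_index Q'
  have h3 := Subgroup.card_mul_index θ.ker
  rw [Subgroup.index_comap_of_surjective _ hθ, ← h3, Subgroup.index_ker,
    MonoidHom.range_eq_top.2 hθ, Subgroup.card_top, ← h2, ← mul_assoc] at h1
  exact Nat.eq_of_mul_eq_mul_right (Nat.pos_of_ne_zero Subgroup.index_ne_zero_of_finite) h1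

omit [Finite S] in
theorem imageAlong_sup {θ : S →* Ω'} {A B : Subgroup Ω} (hA : A ≤ S) (hB : B ≤ S) :
    imageAlong θ (A ⊔ B) = imageAlong θ A ⊔ imageAlong θ B := by
  rw [imageAlong, Subgroup.subgroupOf_sup hA hB, Subgroup.map_sup]
  rfl

omit [Finite S] in
theorem imageAlong_preimage_inf {θ : S →* Ω'} (Q' : Subgroup Ω') (B : Subgroup Ω) :
    imageAlong θ (preimageAlong θ Q' ⊓ B) = Q' ⊓ imageAlong θ B := by
  ext y
  constructor
  · rintro ⟨s, ⟨hq, hp⟩, rfl⟩
    exact ⟨(mem_preimageAlong_iff.1 hq).2, s, hp, rfl⟩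
  · rintro ⟨hy, s, hs, rfl⟩
    exact ⟨s, ⟨mem_preimageAlong_iff.2 ⟨s.2, hy⟩, hs⟩, rfl⟩

omit [Finite S] in
/-- Descending weak embedding and the conjugation hypothesis to a factor system. -/
theorem descend_embedded {F : Cfsg.FusionSystem S} {S' : Subgroup Ω'} {E : Cfsg.FusionSystem S'}
    {θ : S →* Ω'} (hmor : F.IsSurjectiveMorphism E θ) (hθ : Function.Surjective θ) [Finite S]
    {d d' : ℕ} (hd : d = Nat.card θ.ker * d') (hW : Embedded F d) : Embedded E d' := by
  intro Q' hQ' hQc
  have hQS : preimageAlong θ Q' ≤ S := Subgroup.map_subtype_le _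
  obtain ⟨P, hP, hsup, hinf⟩ := hW _ hQS (by rw [card_preimageAlong hθ, hQc, hd])
  refine ⟨imageAlong θ P, stronglyClosed_imageAlong hmor hP, ?_, ?_⟩
  · have h := stronglyClosed_imageAlong hmor hsup
    rwa [imageAlong_sup hQS hP.1,
      imageAlong_preimageAlong (by rw [hmor.2.1]; exact hQ')] at h
  · have h := stronglyClosed_imageAlong hmor hinf
    rwa [imageAlong_preimage_inf] at h

omit [Finite S] in
theorem descend_innerAbove {F : Cfsg.FusionSystem S} {S' : Subgroup Ω'} {E : Cfsg.FusionSystem S'}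
    {θ : S →* Ω'} (hmor : F.IsSurjectiveMorphism E θ) (hθ : Function.Surjective θ) [Finite S]
    {d d' : ℕ} (hd : d = Nat.card θ.ker * d') (hA : InnerAbove F d) : InnerAbove E d' := by
  intro H' hH' hHc R' hHR φ' hφ'
  obtain ⟨φ, hφ, hP, hS, hN, he⟩ := hmor.2.2 R' (hom_le E hφ') φ' hφ'
  obtain ⟨g, hg, hgx⟩ := hA _ (stronglyClosed_preimageAlong hmor hH')
    (by rw [card_preimageAlong hθ, hHc, hd]) _ (Subgroup.map_mono (Subgroup.comap_mono hHR)) φ hφ
  refine ⟨θ ⟨g, hg⟩, ?_, ?_⟩
  · rw [← hmor.2.1]; exact ⟨_, rfl⟩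
  · rintro ⟨y, hy⟩
    obtain ⟨s, rfl⟩ := hθ y
    have hs : (s : Ω) ∈ preimageAlong θ R' := mem_preimageAlong_iff.2 ⟨s.2, hy⟩
    refine (he ⟨s, hs⟩).trans ?_
    show _ = θ ⟨g, hg⟩ * θ s * (θ ⟨g, hg⟩)⁻¹
    rw [← map_inv, ← map_mul, ← map_mul]
    exact congrArg θ (Subtype.ext (hgx ⟨s, hs⟩))

omit [Finite S] in
/-- A normal subgroup of `S`, lying in a coatom free position, has order at most `p`. -/
theorem card_eq_of_inf_coatom_eq_bot {p : ℕ} [Fact p.Prime] [Finite S] (hS : IsPGroup p S)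
    {T : Subgroup Ω} (hT : T ≤ S) (hne : T ≠ ⊥) {M : Subgroup S} (hM : IsCoatom M)
    (h : T ⊓ M.map S.subtype = ⊥) : Nat.card T = p := by
  have := PGroup.normal_of_coatom hS hM
  have hbot : T.subgroupOf S ⊓ M = ⊥ := by
    refine eq_bot_iff.2 fun s hs => ?_
    have h' : (s : Ω) ∈ T ⊓ M.map S.subtype := ⟨hs.1, s, hs.2, rfl⟩
    rw [h, Subgroup.mem_bot] at h'
    exact Subtype.ext h'
  have hrel : M.relIndex (T.subgroupOf S) = Nat.card (T.subgroupOf S) := by
    rw [← Subgroup.inf_relIndex_right, inf_comm, hbot, Subgroup.relIndex_bot_left]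
  have hd : M.relIndex (T.subgroupOf S) ∣ p :=
    PGroup.index_of_coatom hS hM ▸ Subgroup.relIndex_dvd_index_of_normal M _
  rw [hrel, Nat.card_congr (Subgroup.subgroupOfEquivOfLe hT).toEquiv] at hd
  exact ((Nat.dvd_prime Fact.out).1 hd).resolve_left fun e => hne (Subgroup.eq_bot_of_card_eq T e)

omit [Finite S] in
theorem comm_of_le_zpowers {H : Subgroup Ω} {x : Ω} (h : H ≤ Subgroup.zpowers x) :
    ∀ a ∈ H, ∀ b ∈ H, a * b = b * a := by
  intro a ha b hb
  obtain ⟨i, rfl⟩ := Subgroup.mem_zpowers_iff.1 (h ha)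
  obtain ⟨j, rfl⟩ := Subgroup.mem_zpowers_iff.1 (h hb)
  exact (Commute.refl x).zpow_zpow i j

omit [Finite S] in
theorem comm_of_card_prime {H : Subgroup Ω} {p : ℕ} [Fact p.Prime] (h : Nat.card H = p) :
    ∀ a ∈ H, ∀ b ∈ H, a * b = b * a := by
  have := isCyclic_of_prime_card h
  obtain ⟨g, hg⟩ := IsCyclic.exists_generator (α := H)
  refine comm_of_le_zpowers (x := (g : Ω)) fun a ha => ?_
  obtain ⟨i, hi⟩ := Subgroup.mem_zpowers_iff.1 (hg ⟨a, ha⟩)
  exact Subgroup.mem_zpowers_iff.2 ⟨i, congrArg Subtype.val hi⟩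

end Aux

universe u

variable {p : ℕ} [Fact p.Prime]

/-- The main induction. -/
theorem eq_inner_of_embedded_aux (n : ℕ) : ∀ {Ω : Type u} [Group Ω] {S : Subgroup Ω} [Finite S],
    Nat.card S = n → IsPGroup p S → ∀ {F : Cfsg.FusionSystem S}, F.IsSaturated p →
    ∀ k : ℕ, 1 ≤ k → p ^ k < Nat.card S → Embedded F (p ^ k) → InnerAbove F (p ^ k) →
    ∀ P : Subgroup Ω, F.Hom P = (Cfsg.innerFusionSystem S).Hom P := by
  induction n using Nat.strong_induction_on with
  | _ n ih =>
  intro Ω _ S _ hn hS F hF k hk hkS hW hA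
  subst hn
  classical
  have hp := (Fact.out : p.Prime)
  have hbot : F.StronglyClosed ⊥ := stronglyClosed_of_isNormal (isNormal_bot F)
  have hSsc : F.StronglyClosed S := ⟨le_rfl, fun R hR φ hφ x => hom_mem F hφ x⟩
  have hpk : 1 ≤ p ^ k := Nat.one_le_pow _ _ hp.pos
  obtain ⟨H, hH, -, -, hHc⟩ := exists_mid hS hF hW hbot hSsc bot_le (by simpa using hpk) hkS.le
  have htop : ∀ φ ∈ F.Hom S, ∃ g ∈ S, ∀ x : S, φ x = g * (x : Ω) * g⁻¹ := fun φ hφ =>
    hA H hH hHc S hH.1 φ hφ
  by_cases hsmall : ∃ T : Subgroup Ω, F.StronglyClosed T ∧ T ≠ ⊥ ∧ Nat.card T < p ^ k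
  · -- the system is a conjugation modulo each small strongly closed subgroup
    have hmod : ∀ T : Subgroup Ω, F.StronglyClosed T → T ≠ ⊥ → Nat.card T < p ^ k →
        ∀ (P : Subgroup Ω), ∀ φ ∈ F.Hom P,
          ∃ g ∈ S, ∀ x : P, (g * (x : Ω) * g⁻¹)⁻¹ * φ x ∈ T := by
      intro T hT hTne hTlt P φ hφ
      have := finite_of_le hT.1
      obtain ⟨t, ht⟩ := IsPGroup.iff_card.1 (hS.to_le hT.1)
      have ht1 : 1 ≤ t := by
        rcases Nat.eq_zero_or_pos t with rfl | h
        · exact absurd (Subgroup.eq_bot_of_card_eq T (by simpa using ht)) hTne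
        · exact h
      have htk : t < k := (Nat.pow_lt_pow_iff_right hp.one_lt).1 (ht ▸ hTlt)
      have := subgroupOf_normal_of_stronglyClosed hT
      set θ := QuotientGroup.mk' (T.subgroupOf S) with hθdef
      have hker : ∀ s : S, θ s = 1 ↔ (s : Ω) ∈ T := fun s => QuotientGroup.eq_one_iff s
      have hθ : Function.Surjective θ := QuotientGroup.mk'_surjective _
      obtain ⟨E, hE⟩ := exists_isFactorSystem hT θ hker (MonoidHom.range_eq_top.2 hθ)
      have hmor := isSurjectiveMorphism_of_isFactorSystem hS hF hT hE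
      have hEsat := isSaturated_of_isFactorSystem hS hF hT hE
      have hkerc : Nat.card θ.ker = p ^ t := by
        rw [hθdef, QuotientGroup.ker_mk',
          Nat.card_congr (Subgroup.subgroupOfEquivOfLe hT.1).toEquiv, ht]
      have hd : p ^ k = Nat.card θ.ker * p ^ (k - t) := by
        rw [hkerc, ← pow_add]; congr 1; omega
      have hcard : Nat.card S = Nat.card (⊤ : Subgroup (S ⧸ T.subgroupOf S)) * p ^ t := by
        rw [Subgroup.card_top, ← hkerc, hθdef, QuotientGroup.ker_mk']
        exact Subgroup.card_eq_card_quotient_mul_card_subgroup _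
      have hlt : Nat.card (⊤ : Subgroup (S ⧸ T.subgroupOf S)) < Nat.card S := by
        rw [hcard]
        refine lt_mul_of_one_lt_right ?_ (Nat.one_lt_pow (by omega) hp.one_lt)
        exact Nat.card_pos
      have hlt2 : p ^ (k - t) < Nat.card (⊤ : Subgroup (S ⧸ T.subgroupOf S)) := by
        refine Nat.lt_of_mul_lt_mul_right (a := p ^ t) ?_
        rw [← hcard, ← pow_add, Nat.sub_add_cancel htk.le]
        exact hkS
      have hEin := ih _ hlt rfl ((hS.to_quotient _).to_subgroup ⊤) hEsat (k - t) (by omega) hlt2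
        (descend_embedded hmor hθ hd hW) (descend_innerAbove hmor hθ hd hA)
      obtain ⟨φ', hφ', he⟩ := exists_induced_of hmor hφ rfl
      rw [hEin] at hφ'
      obtain ⟨-, g', -, hg'⟩ := hφ'
      obtain ⟨g, rfl⟩ := hθ g'
      refine ⟨g, g.2, fun x => ?_⟩
      have h2 := (he x ⟨⟨x, hom_le F hφ x.2⟩, x.2, rfl⟩).symm.trans (hg' _)
      refine (hker ((g * ⟨x, hom_le F hφ x.2⟩ * g⁻¹)⁻¹ * ⟨φ x, hom_mem F hφ x⟩)).1 ?_
      rw [map_mul, map_inv, h2, map_mul, map_mul, map_inv]
      exact inv_mul_cancel _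
    -- a smallest one
    have hex : ∃ c, ∃ T : Subgroup Ω, F.StronglyClosed T ∧ T ≠ ⊥ ∧ Nat.card T < p ^ k ∧
        Nat.card T = c := by
      obtain ⟨T, h1, h2, h3⟩ := hsmall
      exact ⟨_, T, h1, h2, h3, rfl⟩
    obtain ⟨T, hT, hTne, hTlt, hTc⟩ := Nat.find_spec hex
    have hmin : ∀ U : Subgroup Ω, F.StronglyClosed U → Nat.card U < Nat.card T → U = ⊥ := by
      intro U hU hUlt
      by_contra hne
      exact Nat.find_min hex (hTc ▸ hUlt) ⟨U, hU, hne, hUlt.trans hTlt, rfl⟩
    have := finite_of_le hT.1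
    have hmodT := hmod T hT hTne hTlt
    by_cases hTfr : T ≤ (frattini S).map S.subtype
    · have hnorm : (frattini S).Normal := inferInstance
      have hsc : F.StronglyClosed ((frattini S).map S.subtype) := by
        refine ⟨Subgroup.map_subtype_le _, fun R hR φ hφ x => ?_⟩
        obtain ⟨g, hg, hgx⟩ := hmodT R φ hφ
        obtain ⟨w, hw, hwx⟩ := hR x.2
        have h1 : g * (x : Ω) * g⁻¹ ∈ (frattini S).map S.subtype :=
          ⟨⟨g, hg⟩ * w * ⟨g, hg⟩⁻¹, hnorm.conj_mem w hw _, by
            show g * (w : Ω) * g⁻¹ = _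
            rw [show (w : Ω) = x from hwx]⟩
        have h2 := Subgroup.mul_mem _ h1 (hTfr (hgx x))
        rwa [mul_inv_cancel_left] at h2
      obtain ⟨d⟩ := FusTate.nonempty_twistData hS hF
      exact FusTate.eq_inner_of_stronglyClosed_frattini hS hF d htop hsc
    · obtain ⟨t₀, ht₀T, ht₀⟩ := SetLike.not_le_iff_exists.1 hTfr
      obtain ⟨M, hM, hMt⟩ : ∃ M : Subgroup S, IsCoatom M ∧ (⟨t₀, hT.1 ht₀T⟩ : S) ∉ M := by
        by_contra hcon
        push Not at hcon
        exact ht₀ ⟨_, PGroup.mem_frattini_iff.2 hcon, rfl⟩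
      refine FusAut.eq_inner_of_isPGroup_autGroup hS hF fun R hR => ?_
      have := finite_of_le hR
      have := finite_mulAut R
      refine FusAut.isPGroup_of_prime_order fun a q hq hqp haq => Subtype.ext ?_
      have hαq : (a : MulAut R) ^ q = 1 := congrArg Subtype.val haq
      have hcop : q.Coprime p := (Nat.coprime_primes hq hp).2 hqp
      have hφa := (mem_autGroup_iff F hR).1 a.2
      obtain ⟨g, hg, hgx⟩ := hmodT R _ hφa
      have htrT : ∀ x : R, (x : Ω)⁻¹ * (((a : MulAut R) x : R) : Ω) ∈ T :=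
        trivial_mod hS (fun g hg x hx => conj_mem_sc hT hg hx) hR hg hgx hcop hαq
      by_cases hTM : T ⊓ M.map S.subtype = ⊥
      · -- `T` is central of order `p`
        have hTp : Nat.card T = p := card_eq_of_inf_coatom_eq_bot hS hT.1 hTne hM hTM
        have := subgroupOf_normal_of_stronglyClosed hT
        have hcent : ∀ y ∈ T, ∀ g ∈ S, g * y * g⁻¹ = y := by
          intro y hy g hg
          have hc := PGroup.le_center_of_card_eq hS (T.subgroupOf S)
            (by rw [Nat.card_congr (Subgroup.subgroupOfEquivOfLe hT.1).toEquiv, hTp])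
            (show (⟨y, hT.1 hy⟩ : S) ∈ T.subgroupOf S from hy)
          have e : g * y = y * g :=
            congrArg Subtype.val (Subgroup.mem_center_iff.1 hc ⟨g, hg⟩)
          rw [e, mul_inv_cancel_right]
        by_cases hTR : T ≤ R
        · have hφT := restrict_mem F hφa hTR
          set φT := (R.subtype.comp (a : MulAut R).toMonoidHom).comp (Subgroup.inclusion hTR)
            with hφTdef
          have hrange : φT.range = T := by
            refine Subgroup.eq_of_le_of_card_ge ?_ ?_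
            · rintro _ ⟨x, rfl⟩
              exact map_mem_of_stronglyClosed hT hφT x.2
            · exact (Nat.card_congr (MonoidHom.ofInjective (F.injective_of_mem hφT)).toEquiv).le
          have hfc : F.IsFullyCentralized T := ⟨hT.1, fun Q _ => by
            refine (Subgroup.card_le_of_le (inf_le_left : centralizerIn S Q ≤ S)).trans
              (le_of_eq ?_)
            have e : centralizerIn S T = S := le_antisymm inf_le_left fun g hg => ⟨hg, fun y hy => by
              have h := hcent y hy g hg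
              exact (mul_inv_eq_iff_eq_mul.1 h).symm⟩
            rw [e]⟩
          obtain ⟨ψ, hψ, hψe⟩ := (receptive_of_fullyCentralized hS hF hfc).2 T φT hφT hrange
          have hSE : S ≤ extender S T φT := fun g hg =>
            mem_extender_iff.2 ⟨hg, le_normalizer_of_stronglyClosed hT hg, 1, one_mem _,
              fun x hx => by
                have e : (⟨g * (x : Ω) * g⁻¹, hx⟩ : T) = x := Subtype.ext (hcent x x.2 g hg)
                rw [e, one_mul, inv_one, mul_one]⟩
          obtain ⟨g₁, hg₁, hgx₁⟩ := htop _ (restrict_mem F hψ hSE)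
          have hfixT : ∀ z : R, (z : Ω) ∈ T → (a : MulAut R) z = z := fun z hz => by
            apply Subtype.ext
            have h1 := hψe z hz (hSE (hT.1 hz))
            have h2 : ψ ⟨z, hSE (hT.1 hz)⟩ = g₁ * (z : Ω) * g₁⁻¹ := hgx₁ ⟨z, hT.1 hz⟩
            rw [h2, hcent _ hz g₁ hg₁] at h1
            exact h1.symm
          refine MulEquiv.ext fun x => ?_
          set z : R := x⁻¹ * (a : MulAut R) x with hz
          have hzT : (z : Ω) ∈ T := htrT x
          have hxz : (a : MulAut R) x = x * z := by rw [hz, mul_inv_cancel_left]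
          have hpow := pow_fix_mul hxz (hfixT z hzT) q
          rw [hαq, MulAut.one_apply, left_eq_mul] at hpow
          have hzp : z ^ p = 1 := Subtype.ext (by
            have h := congrArg Subtype.val (pow_card_eq_one' (G := T) (x := ⟨z, hzT⟩))
            rw [hTp] at h
            exact h)
          have hz1 : z = 1 := orderOf_eq_one_iff.1 (Nat.eq_one_of_dvd_coprimes hcop
            (orderOf_dvd_of_pow_eq_one hpow) (orderOf_dvd_of_pow_eq_one hzp))
          show (a : MulAut R) x = x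
          rw [hxz, hz1, mul_one]
        · refine MulEquiv.ext fun x => Subtype.ext ?_
          have hd : Nat.card ↥(T ⊓ R) ∣ p := hTp ▸ Subgroup.card_dvd_of_le inf_le_left
          have hTR' : T ⊓ R = ⊥ := by
            rcases (Nat.dvd_prime hp).1 hd with h | h
            · exact Subgroup.eq_bot_of_card_eq _ h
            · exact absurd ((Subgroup.eq_of_le_of_card_ge (inf_le_left : T ⊓ R ≤ T)
                (by rw [hTp, h])).ge.trans inf_le_right) hTR
          have h : (x : Ω)⁻¹ * (((a : MulAut R) x : R) : Ω) ∈ T ⊓ R :=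
            ⟨htrT x, R.mul_mem (R.inv_mem x.2) ((a : MulAut R) x).2⟩
          rw [hTR', Subgroup.mem_bot, inv_mul_eq_one] at h
          exact h.symm
      · -- a second small strongly closed subgroup
        have hTMlt : T ⊓ M.map S.subtype < T := lt_of_le_of_ne inf_le_left fun e => by
          obtain ⟨s, hs, hse⟩ := (e.ge.trans inf_le_right) ht₀T
          have : s = ⟨t₀, hT.1 ht₀T⟩ := Subtype.ext hse
          exact hMt (this ▸ hs)
        have hTMc := lt_card hT.1 hTMlt
        obtain ⟨e₀, he₀⟩ := IsPGroup.iff_card.1 hS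
        have hMc : p ^ k ≤ Nat.card (M.map S.subtype) := by
          rw [Subgroup.card_map_of_injective S.subtype_injective]
          have h1 := Subgroup.card_mul_index M
          rw [PGroup.index_of_coatom hS hM, he₀] at h1
          obtain ⟨m, hm⟩ := IsPGroup.iff_card.1 (hS.to_subgroup M)
          rw [hm, ← pow_succ] at h1
          have h2 : m + 1 = e₀ := Nat.pow_right_injective hp.two_le h1
          have h3 : k < e₀ := (Nat.pow_lt_pow_iff_right hp.one_lt).1 (he₀ ▸ hkS)
          rw [hm]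
          exact Nat.pow_le_pow_right hp.pos (by omega)
        obtain ⟨Q, hTQ, hQM, hQc⟩ := exists_between hS (inf_le_right : T ⊓ M.map S.subtype ≤ _)
          (Subgroup.map_subtype_le M) (hTMc.le.trans hTlt.le) hMc
        have hQS := hQM.trans (Subgroup.map_subtype_le M)
        obtain ⟨P, hP, hQP, hQiP⟩ := hW Q hQS hQc
        have hQT : Q ⊓ T = T ⊓ M.map S.subtype :=
          le_antisymm (le_inf inf_le_right (inf_le_left.trans hQM)) (le_inf hTQ inf_le_left)
        have hQTne : Q ⊓ T ≠ ⊥ := hQT ▸ hTM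
        have : Finite ↥(T ⊓ M.map S.subtype) :=
          finite_of_le (inf_le_left.trans hT.1 : T ⊓ M.map S.subtype ≤ S)
        have hX : (Q ⊓ P) ⊓ T = ⊥ := hmin _ (stronglyClosed_inf hQiP hT)
          (lt_of_le_of_lt (Subgroup.card_le_of_le (hQT ▸ inf_le_inf_right T inf_le_left)) hTMc)
        have hPT : P ⊓ T = ⊥ := by
          rcases (Subgroup.card_le_of_le (inf_le_right : P ⊓ T ≤ T)).eq_or_lt with h | h
          · have hTP : T ≤ P :=
              (Subgroup.eq_of_le_of_card_ge (inf_le_right : P ⊓ T ≤ T) h.ge).ge.trans inf_le_left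
            exact absurd (by rwa [inf_assoc, inf_eq_right.2 hTP] at hX) hQTne
          · exact hmin _ (stronglyClosed_inf hP hT) h
        have hPne : P ≠ ⊥ := by
          intro e
          rw [e, sup_bot_eq] at hQP
          exact hQTne (hmin _ (stronglyClosed_inf hQP hT) (hQT ▸ hTMc))
        have := subgroupOf_normal_of_stronglyClosed hP
        have hPS : P.subgroupOf S ≠ ⊥ := fun e => hPne (eq_bot_iff.2 fun y hy => by
          have h : (⟨y, hP.1 hy⟩ : S) ∈ P.subgroupOf S := hy
          rw [e, Subgroup.mem_bot] at h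
          exact congrArg Subtype.val h)
        obtain ⟨z, hz⟩ := exists_prime_orderOf_dvd_card' (G := ↥(P.subgroupOf S ⊓ Subgroup.center S))
          p (((hS.to_subgroup _).card_eq_or_dvd).resolve_left fun e =>
            PGroup.inf_center_ne_bot hS _ hPS (Subgroup.eq_bot_of_card_eq _ e))
        set P₀ := Subgroup.zpowers ((z : S) : Ω) with hP₀
        have hP₀P : P₀ ≤ P := Subgroup.zpowers_le.2 z.2.1
        have hP₀S : P₀ ≤ S := hP₀P.trans hP.1
        have hP₀c : Nat.card P₀ = p := by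
          rw [hP₀, Nat.card_zpowers, Subgroup.orderOf_coe, Subgroup.orderOf_coe, hz]
        have hP₀cen : ∀ y ∈ P₀, ∀ g ∈ S, g * y * g⁻¹ = y := by
          intro y hy g hg
          have hle : P₀ ≤ (Subgroup.center S).map S.subtype :=
            Subgroup.zpowers_le.2 ⟨z, z.2.2, rfl⟩
          obtain ⟨w, hw, rfl⟩ := hle hy
          have e : g * (w : Ω) = w * g :=
            congrArg Subtype.val (Subgroup.mem_center_iff.1 hw ⟨g, hg⟩)
          show g * (w : Ω) * g⁻¹ = w
          rw [e, mul_inv_cancel_right]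
        have hP₀sc : F.StronglyClosed P₀ := by
          refine ⟨hP₀S, fun R' hR' φ hφ x => ?_⟩
          obtain ⟨g', hg'', hgx'⟩ := hmodT R' φ hφ
          have h1 : (x : Ω)⁻¹ * φ x ∈ T := by
            have := hgx' x
            rwa [hP₀cen _ (hR' x.2) g' hg''] at this
          have h2 : (x : Ω)⁻¹ * φ x ∈ P :=
            P.mul_mem (P.inv_mem (hP₀P (hR' x.2))) (hP.2 R' (hR'.trans hP₀P) φ hφ x)
          have h3 : (x : Ω)⁻¹ * φ x ∈ P ⊓ T := ⟨h2, h1⟩
          rw [hPT, Subgroup.mem_bot, inv_mul_eq_one] at h3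
          exact h3 ▸ hR' x.2
        have hP₀ne : P₀ ≠ ⊥ := fun e => by
          rw [e, Subgroup.card_bot] at hP₀c
          exact hp.one_lt.ne hP₀c
        have hP₀lt : Nat.card P₀ < p ^ k := by
          refine lt_of_le_of_lt ?_ hTlt
          obtain ⟨t, ht⟩ := IsPGroup.iff_card.1 (hS.to_le hT.1)
          rw [hP₀c, ht]
          refine Nat.le_self_pow (fun e => hTne (Subgroup.eq_bot_of_card_eq T ?_)) p
          rw [ht, e, pow_zero]
        obtain ⟨g', hg'', hgx'⟩ := hmod P₀ hP₀sc hP₀ne hP₀lt R _ hφa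
        have htr0 : ∀ x : R, (x : Ω)⁻¹ * (((a : MulAut R) x : R) : Ω) ∈ P₀ :=
          trivial_mod hS (fun g hg x hx => conj_mem_sc hP₀sc hg hx) hR hg'' hgx' hcop hαq
        refine MulEquiv.ext fun x => Subtype.ext ?_
        have h : (x : Ω)⁻¹ * (((a : MulAut R) x : R) : Ω) ∈ P ⊓ T :=
          ⟨hP₀P (htr0 x), htrT x⟩
        rw [hPT, Subgroup.mem_bot, inv_mul_eq_one] at h
        exact h.symm
  · push Not at hsmall
    by_cases hcomm : ∀ x ∈ H, ∀ y ∈ H, x * y = y * x
    · have hHn := isNormal_of_stronglyClosed_comm hS hF hH hcomm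
      intro P
      ext φ
      constructor
      · intro hφ
        obtain ⟨ψ, hψ, hψe, -⟩ := hHn.2 P φ hφ
        obtain ⟨g, hg, hgx⟩ := hA H hH hHc _ le_sup_right ψ hψ
        exact ⟨hom_le F hφ, g, hg, fun x => by rw [← hψe x, hgx]; rfl⟩
      · exact fun h => innerFusionSystem_isSubsystemOf F P h
    have := finite_of_le hH.1
    obtain ⟨e₀, he₀⟩ := IsPGroup.iff_card.1 hS
    have hke : k < e₀ := (Nat.pow_lt_pow_iff_right hp.one_lt).1 (he₀ ▸ hkS)
    obtain ⟨K, hHK, hKS, hKc⟩ := exists_between (k := k + 1) hS hH.1 le_rfl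
      (hHc ▸ Nat.pow_le_pow_right hp.pos k.le_succ)
      (he₀ ▸ Nat.pow_le_pow_right hp.pos hke)
    have := finite_of_le hKS
    have hHKne : ¬ K ≤ H := fun e => by
      have := Subgroup.card_le_of_le e
      rw [hKc, hHc] at this
      exact absurd this (not_le.2 (Nat.pow_lt_pow_right hp.one_lt k.lt_succ_self))
    obtain ⟨x, hxK, hxH⟩ := SetLike.not_le_iff_exists.1 hHKne
    have hxle : Subgroup.zpowers x ≤ K := Subgroup.zpowers_le.2 hxK
    have := finite_of_le (hxle.trans hKS)
    have hxc : Nat.card (Subgroup.zpowers x) ≤ p ^ k := by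
      obtain ⟨i, hi⟩ := IsPGroup.iff_card.1 (hS.to_le (hxle.trans hKS))
      rcases Nat.lt_or_ge k i with h | h
      · refine absurd (comm_of_le_zpowers (x := x) (hHK.trans ?_)) hcomm
        refine (Subgroup.eq_of_le_of_card_ge hxle ?_).ge
        rw [hKc, hi]
        exact Nat.pow_le_pow_right hp.pos h
      · exact hi ▸ Nat.pow_le_pow_right hp.pos h
    obtain ⟨Q, hxQ, hQK, hQc⟩ :=
      exists_between hS hxle hKS hxc (hKc ▸ Nat.pow_le_pow_right hp.pos k.le_succ)
    have hQS := hQK.trans hKS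
    have := finite_of_le hQS
    have hQHlt : Nat.card ↥(Q ⊓ H) < p ^ k := by
      refine hHc ▸ lt_card hH.1 (lt_of_le_of_ne inf_le_right fun e => hxH ?_)
      have hHQ : H = Q := Subgroup.eq_of_le_of_card_ge (e.ge.trans inf_le_left) (by rw [hQc, hHc])
      exact hHQ ▸ hxQ (Subgroup.mem_zpowers x)
    have hQHne : Q ⊓ H ≠ ⊥ := by
      intro e
      have hinj : Function.Injective fun v : Q × H =>
          (⟨(v.1 : Ω) * (v.2 : Ω), K.mul_mem (hQK v.1.2) (hHK v.2.2)⟩ : K) := by
        rintro ⟨q, h⟩ ⟨q', h'⟩ hv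
        have hv' : (q : Ω) * h = q' * h' := congrArg Subtype.val hv
        have e1 : (q' : Ω)⁻¹ * q = h' * (h : Ω)⁻¹ := by
          rw [eq_mul_inv_iff_mul_eq, mul_assoc, hv', inv_mul_cancel_left]
        have e2 : (q' : Ω)⁻¹ * q ∈ Q ⊓ H :=
          ⟨Q.mul_mem (Q.inv_mem q'.2) q.2, e1 ▸ H.mul_mem h'.2 (H.inv_mem h.2)⟩
        rw [e, Subgroup.mem_bot] at e2
        obtain rfl : q' = q := Subtype.ext (inv_mul_eq_one.1 e2)
        obtain rfl : h = h' := Subtype.ext (mul_left_cancel hv')
        rfl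
      have hc := Nat.card_le_card_of_injective _ hinj
      rw [Nat.card_prod, hQc, hHc, hKc, ← pow_add] at hc
      have hk1 := (Nat.pow_le_pow_iff_right hp.one_lt).1 hc
      obtain rfl : k = 1 := by omega
      exact hcomm (comm_of_card_prime (p := p) (by simpa using hHc))
    obtain ⟨P, hP, hQP, hQiP⟩ := hW Q hQS hQc
    have hQnsc : ¬ F.StronglyClosed Q := fun h =>
      absurd (hsmall _ (stronglyClosed_inf h hH) hQHne) (not_le.2 hQHlt)
    have hQP0 : Q ⊓ P = ⊥ := by
      by_contra hne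
      have h := hsmall _ hQiP hne
      exact hQnsc ((Subgroup.eq_of_le_of_card_ge (inf_le_left : Q ⊓ P ≤ Q) (hQc ▸ h)) ▸ hQiP)
    have hPne : P ≠ ⊥ := by
      intro e
      rw [e, sup_bot_eq] at hQP
      exact hQnsc hQP
    have hPH : P ⊓ H = ⊥ := by
      by_contra hne
      have h := hsmall _ (stronglyClosed_inf hP hH) hne
      have hHP : H ≤ P :=
        (Subgroup.eq_of_le_of_card_ge (inf_le_right : P ⊓ H ≤ H) (hHc ▸ h)).ge.trans inf_le_left
      exact hQHne (eq_bot_iff.2 ((inf_le_inf_left Q hHP).trans hQP0.le))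
    obtain ⟨H₂, hH₂, -, hH₂P, hH₂c⟩ :=
      exists_mid hS hF hW hbot hP bot_le (by simpa using hpk) (hsmall P hP hPne)
    refine eq_inner_of_two hS hF hH hH₂ ?_ ?_
    · exact eq_bot_iff.2 ((inf_le_inf_left H hH₂P).trans (inf_comm H P ▸ hPH).le)
    · rintro R (h | h) φ hφ
      · exact hA H hH hHc R h φ hφ
      · exact hA H₂ hH₂ hH₂c R h φ hφ

end CfsgLib.FusWeakEmbed59
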